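import Mathlib
import Cfsg.Agent.H79.CS.GL

/-!
# S3677, `lat_odd_odd`: arithmetic (helper79)
-/

set_option autoImplicit false
set_option linter.unusedSectionVars false
set_option linter.unusedVariables false

namespace Cfsg.Agent.H79.CS

theorem glc_eq {Q : ℕ} (m : ℕ) :
    glc Q m = Q ^ (m * (m - 1) / 2) * ∏ i ∈ Finset.range m, (Q ^ (m - i) - 1) := by
  rw [← Finset.sum_range_id, ← Finset.prod_pow_eq_pow_sum, ← Finset.prod_mul_distrib, glc]
  refine Finset.prod_congr rfl fun i hi => ?_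
  have hi' := Finset.mem_range.1 hi
  rw [Nat.mul_sub, mul_one, ← pow_add, Nat.add_sub_cancel' hi'.le]

variable {p f : ℕ}

theorem not_dvd_pow_sub (hp : p.Prime) (hf : 1 ≤ f) {k : ℕ} (hk : 1 ≤ k) : ¬ p ∣ (p ^ f) ^ k - 1 := by
  intro h
  have hpf : p ∣ (p ^ f) ^ k := by
    rw [← pow_mul]
    exact dvd_pow_self p (by positivity)
  have h3 : p ∣ (p ^ f) ^ k - ((p ^ f) ^ k - 1) := Nat.dvd_sub hpf h
  rw [Nat.sub_sub_self (Nat.one_le_pow _ _ (pow_pos hp.pos _))] at h3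
  exact hp.one_lt.ne' (Nat.dvd_one.1 h3)

theorem glc_ne (hp : p.Prime) (hf : 1 ≤ f) {k m : ℕ} (hk : 1 ≤ k) : glc ((p ^ f) ^ k) m ≠ 0 := by
  rw [glc_eq]
  refine mul_ne_zero (pow_ne_zero _ (pow_ne_zero _ (pow_ne_zero _ hp.pos.ne'))) ?_
  rw [Finset.prod_ne_zero_iff]
  intro i hi h
  apply not_dvd_pow_sub hp hf (k := k * (m - i)) (Nat.mul_pos hk (by have := Finset.mem_range.1 hi; omega))
  rw [pow_mul, h]
  exact dvd_zero p

theorem factorization_glc (hp : p.Prime) (hf : 1 ≤ f) {k m : ℕ} (hk : 1 ≤ k) :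
    (glc ((p ^ f) ^ k) m).factorization p = f * (k * (m * (m - 1) / 2)) := by
  have h0 := glc_ne hp hf (m := m) hk
  rw [glc_eq] at h0 ⊢
  have h1 : ¬ p ∣ ∏ i ∈ Finset.range m, (((p ^ f) ^ k) ^ (m - i) - 1) := by
    rw [hp.prime.dvd_finsetProd_iff]
    rintro ⟨i, hi, h⟩
    rw [← pow_mul] at h
    exact not_dvd_pow_sub hp hf (Nat.mul_pos hk (by have := Finset.mem_range.1 hi; omega)) h
  rw [Nat.factorization_mul (left_ne_zero_of_mul h0) (right_ne_zero_of_mul h0), Finsupp.add_apply,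
    Nat.factorization_eq_zero_of_not_dvd h1, add_zero, ← pow_mul, ← pow_mul, Nat.Prime.factorization_pow hp,
    Finsupp.single_eq_same]

section

variable {n r N : ℕ} (hp : p.Prime) (hf : 1 ≤ f) (hn : 3 ≤ n)
  (hN : 2 * N = (p ^ f) ^ (n ^ 2) * ∏ i ∈ Finset.range n, ((p ^ f) ^ (2 * (i + 1)) - 1))

include hp hf hn hN

theorem fac_N (hp2 : p ≠ 2) : N.factorization p = f * n ^ 2 := by
  have h1 : ¬ p ∣ ∏ i ∈ Finset.range n, ((p ^ f) ^ (2 * (i + 1)) - 1) := by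
    rw [hp.prime.dvd_finsetProd_iff]
    rintro ⟨i, hi, h⟩
    exact not_dvd_pow_sub hp hf (by omega) h
  have h0 : ∏ i ∈ Finset.range n, ((p ^ f) ^ (2 * (i + 1)) - 1) ≠ 0 := fun h => h1 (by rw [h]; exact dvd_zero p)
  have hN0 : N ≠ 0 := by
    rintro rfl
    rw [mul_zero] at hN
    exact (mul_ne_zero (pow_ne_zero _ (pow_ne_zero _ hp.pos.ne')) h0) hN.symm
  have h2 : (2 * N).factorization p =
      ((p ^ f) ^ (n ^ 2) * ∏ i ∈ Finset.range n, ((p ^ f) ^ (2 * (i + 1)) - 1)).factorization p := by rw [hN]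
  rw [Nat.factorization_mul two_ne_zero hN0, Finsupp.add_apply, Nat.factorization_eq_zero_of_not_dvd (n := 2),
    zero_add, Nat.factorization_mul (pow_ne_zero _ (pow_ne_zero _ hp.pos.ne')) h0, Finsupp.add_apply,
    Nat.factorization_eq_zero_of_not_dvd h1, add_zero, ← pow_mul, Nat.Prime.factorization_pow hp,
    Finsupp.single_eq_same] at h2
  · exact h2
  · intro h
    exact hp2 ((Nat.prime_dvd_prime_iff_eq hp Nat.prime_two).1 h)

theorem two_dvd_pow_sub (hp2 : p ≠ 2) : 2 * (((p ^ f) ^ n - 1) / 2) = (p ^ f) ^ n - 1 := by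
  apply Nat.mul_div_cancel'
  have hodd : Odd ((p ^ f) ^ n) := ((hp.odd_of_ne_two hp2).pow).pow
  obtain ⟨k, hk⟩ := hodd
  rw [hk]
  exact ⟨k, by omega⟩

variable (hr : r.Prime) (hodd : Odd n) (ho : orderOf (((p ^ f : ℕ)) : ZMod r) = n)

include hr hodd ho

theorem r_dvd (k : ℕ) (hk : 1 ≤ k) : r ∣ (p ^ f) ^ k - 1 ↔ n ∣ k := by
  have h1 : r ∣ (p ^ f) ^ k - 1 ↔ (((p ^ f : ℕ)) : ZMod r) ^ k = 1 := by
    rw [← ZMod.natCast_eq_zero_iff, Nat.cast_sub (Nat.one_le_pow _ _ (pow_pos hp.pos _)), Nat.cast_one,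
      Nat.cast_pow, sub_eq_zero]
  rw [h1, ← orderOf_dvd_iff_pow_eq_one, ho]

theorem r_ne_two : r ≠ 2 := by
  rintro rfl
  have h1 : (((p ^ f : ℕ)) : ZMod 2) = 0 ∨ (((p ^ f : ℕ)) : ZMod 2) = 1 := by
    generalize (((p ^ f : ℕ)) : ZMod 2) = y
    revert y; decide
  rcases h1 with h | h
  · rw [h] at ho
    have : (0 : ZMod 2) ^ n = 1 := by rw [← ho]; exact pow_orderOf_eq_one _
    rw [zero_pow (by omega)] at this
    exact absurd this (by decide)
  · rw [h, orderOf_one] at ho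
    omega

theorem r_ne_p : r ≠ p := by
  rintro rfl
  have h1 : (((r ^ f : ℕ)) : ZMod r) = 0 := by
    rw [ZMod.natCast_eq_zero_iff]
    exact dvd_pow_self r (by omega)
  have : (((r ^ f : ℕ)) : ZMod r) ^ n = 1 := by rw [← ho]; exact pow_orderOf_eq_one _
  have hr' : Fact r.Prime := ⟨hr⟩
  rw [h1, zero_pow (by omega)] at this
  exact zero_ne_one this

theorem full_N (hp2 : p ≠ 2) : r ∣ N ∧ r ^ (N.factorization r) ∣ ((p ^ f) ^ n - 1) / 2 := by
  have hr2 := r_ne_two hp hf hn hN hr hodd ho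
  have hrp := r_ne_p hp hf hn hN hr hodd ho
  have hd := r_dvd hp hf hn hN hr hodd ho
  have h2 := two_dvd_pow_sub (p := p) (f := f) (n := n) hp hf hn hN hp2
  have hc2 : Nat.Coprime r 2 := (Nat.coprime_primes hr Nat.prime_two).2 hr2
  have hN0 : N ≠ 0 := by
    intro h
    have := fac_N hp hf hn hN hp2
    rw [h, Nat.factorization_zero, Finsupp.coe_zero, Pi.zero_apply] at this
    have : 0 < f * n ^ 2 := by positivity
    omega
  obtain ⟨k, hk⟩ : ∃ k, n = k + 1 := ⟨n - 1, by omega⟩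
  have hsq : (p ^ f) ^ (2 * (k + 1)) - 1 = ((p ^ f) ^ n + 1) * ((p ^ f) ^ n - 1) := by
    have h3 : ((p ^ f) ^ n) ^ 2 - 1 ^ 2 = ((p ^ f) ^ n + 1) * ((p ^ f) ^ n - 1) := Nat.sq_sub_sq _ _
    rw [← h3, one_pow, hk, mul_comm 2 (k + 1), pow_mul]
  have hN' : 2 * N = ((p ^ f) ^ (n ^ 2) * (∏ i ∈ Finset.range k, ((p ^ f) ^ (2 * (i + 1)) - 1)) *
      ((p ^ f) ^ n + 1)) * ((p ^ f) ^ n - 1) := by
    have e : Finset.range n = Finset.range (k + 1) := by rw [hk]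
    rw [hN, e, Finset.prod_range_succ, hsq]
    ring
  have hrn : r ∣ (p ^ f) ^ n - 1 := (hd n (by omega)).2 dvd_rfl
  have hcop : Nat.Coprime r ((p ^ f) ^ (n ^ 2) * (∏ i ∈ Finset.range k, ((p ^ f) ^ (2 * (i + 1)) - 1)) *
      ((p ^ f) ^ n + 1)) := by
    rw [Nat.Prime.coprime_iff_not_dvd hr]
    intro h
    rcases hr.dvd_mul.1 h with h | h
    · rcases hr.dvd_mul.1 h with h | h
      · exact hrp ((Nat.prime_dvd_prime_iff_eq hr hp).1 (hr.dvd_of_dvd_pow (hr.dvd_of_dvd_pow h)))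
      · rw [hr.prime.dvd_finsetProd_iff] at h
        obtain ⟨i, hi, h⟩ := h
        have h3 := (hd _ (by omega)).1 h
        have h4 : n ∣ i + 1 := (Nat.Coprime.dvd_mul_left (Nat.coprime_comm.1 (Nat.coprime_two_left.2 hodd))).1 h3
        have := Nat.le_of_dvd (by omega) h4
        have := Finset.mem_range.1 hi
        omega
    · have h3 : r ∣ ((p ^ f) ^ n + 1) - ((p ^ f) ^ n - 1) := Nat.dvd_sub h hrn
      have h4 : ((p ^ f) ^ n + 1) - ((p ^ f) ^ n - 1) = 2 := by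
        have := Nat.one_le_pow n (p ^ f) (pow_pos hp.pos _)
        omega
      rw [h4] at h3
      exact hr2 ((Nat.prime_dvd_prime_iff_eq hr Nat.prime_two).1 h3)
  constructor
  · have h3 : r ∣ 2 * N := by rw [hN']; exact hrn.mul_left _
    exact (Nat.Coprime.dvd_mul_left hc2).1 h3
  · have h3 : r ^ (N.factorization r) ∣ 2 * N := (Nat.ordProj_dvd N r).mul_left 2
    rw [hN'] at h3
    have h4 := (Nat.Coprime.dvd_mul_left (hcop.pow_left _)).1 h3
    rw [← h2] at h4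
    exact (Nat.Coprime.dvd_mul_left (hc2.pow_left _)).1 h4

end

end Cfsg.Agent.H79.CS
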