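import Cfsg.Agent.H79.CS.Tor2
import Cfsg.Agent.H524.CS.Lin
import Cfsg.Agent.H955.QBlocks

/-!
# S3677, `lat_odd_odd`: the geometry (helper79)
-/

set_option autoImplicit false
set_option linter.unusedSectionVars false

namespace Cfsg.Agent.H79.CS

open Module Polynomial
open Cfsg.Agent.H951 (Frm Isom Inv Irr fx cm mem_fx mem_cm inv_cm inv_top)
open Cfsg.Agent.H204 (Sy perp mem_perp res coe_res nd_restrict_perp)
open Cfsg.Agent.H524.CS (CI card_split card_line comm_of_irr)

variable {F V : Type*} [Field F] [Fintype F] [AddCommGroup V] [Module F V] [FiniteDimensional F V]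
  {B : LinearMap.BilinForm F V} {s x t : V ≃ₗ[F] V} {r n : ℕ}

/-- the form as a function -/
def bf (B : LinearMap.BilinForm F V) : V → V → F := fun u v => B u v

theorem frm_bf (hs : Sy B) : Frm (RingHom.id F) 1 (bf B) where
  add_left u v w := by simp [bf]
  smul_left a u v := by simp [bf]
  herm u v := by simp [bf, hs u v]
  sigma_sq _ := rfl
  eps_ne := one_ne_zero

/-- the hypotheses -/
structure OS (B : LinearMap.BilinForm F V) (s : V ≃ₗ[F] V) (r n : ℕ) : Prop where
  sy : Sy B
  nd : Cfsg.Agent.H204.Nd B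
  h2 : (2 : F) ≠ 0
  r2 : r ≠ 2
  rF : (r : F) ≠ 0
  odd : Odd n
  ord : orderOf (Fintype.card F : ZMod r) = n
  dim : finrank F V = 2 * n + 1
  isom : ∀ u v, B (s u) (s v) = B u v
  pow : s ^ r = 1
  ne : s ≠ 1

theorem pow_end (s : V ≃ₗ[F] V) (k : ℕ) (v : V) : ((s : End F V) ^ k) v = (s ^ k) v := by
  induction k generalizing v with
  | zero => rfl
  | succ k ih => rw [pow_succ, pow_succ, Module.End.mul_apply, ih]; rfl

namespace OS

variable (h : OS B s r n)

include h

theorem pow' : (s : End F V) ^ r = 1 := by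
  apply LinearMap.ext
  intro v
  rw [pow_end, h.pow]
  rfl

theorem isom' : Isom (bf B) (s : End F V) := fun u v => h.isom u v

theorem nd_top : Cfsg.Agent.H951.Nd (bf B) ⊤ := by
  intro u _ hu0
  by_contra hno
  push Not at hno
  exact hu0 (h.nd u fun v => hno v Submodule.mem_top)

variable [hr : Fact r.Prime]

theorem isCompl : IsCompl (fx (s : End F V)) (cm (s : End F V)) := Cfsg.Agent.H951.isCompl_fx_cm h.rF h.pow'

theorem even {W' : Submodule F V} (hW : W' ≤ cm (s : End F V)) (hi : Inv (s : End F V) W')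
    (hn : Cfsg.Agent.H951.Nd (bf B) W') : Even (finrank F W') := by
  refine Cfsg.Agent.H955.even_of_symm (T := s) h.sy h.isom (hr.out.odd_of_ne_two h.r2) h.pow hi ?_ ?_
  · intro u hu hu0
    by_contra hne
    obtain ⟨v, hv, h1⟩ := hn u hu hne
    exact h1 (hu0 v hv)
  · intro w hw h1
    have h3 : w ∈ fx (s : End F V) ⊓ cm (s : End F V) := ⟨mem_fx.2 h1, hW hw⟩
    rw [h.isCompl.inf_eq_bot, Submodule.mem_bot] at h3
    exact h3

theorem nd_cm : Cfsg.Agent.H951.Nd (bf B) (cm (s : End F V)) := by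
  have := h.isom'.nd_inf_cm (frm_bf h.sy) h.rF h.pow' inv_top h.nd_top
  rwa [top_inf_eq] at this

theorem finrank_cm : finrank F (cm (s : End F V)) = 2 * n := by
  have h1 : n ∣ finrank F (cm (s : End F V)) := by
    have := Cfsg.Agent.H951.ord_dvd_finrank h.pow' (inv_cm) (by
      rw [inf_comm]; exact h.isCompl.inf_eq_bot)
    rwa [h.ord] at this
  have h2 := h.even le_rfl inv_cm h.nd_cm
  have h3 : 2 * n ∣ finrank F (cm (s : End F V)) :=
    Nat.Coprime.mul_dvd_of_dvd_of_dvd (Nat.coprime_two_left.2 h.odd) h2.two_dvd h1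
  have h4 : finrank F (cm (s : End F V)) ≤ 2 * n + 1 := h.dim ▸ Submodule.finrank_le _
  have h5 : finrank F (cm (s : End F V)) ≠ 0 := by
    intro h0
    apply h.ne
    apply LinearEquiv.ext
    intro v
    have h6 : s v - v ∈ cm (s : End F V) := mem_cm.2 ⟨v, rfl⟩
    rw [Submodule.finrank_eq_zero.1 h0, Submodule.mem_bot] at h6
    exact sub_eq_zero.1 h6
  obtain ⟨k, hk⟩ := h3
  have hn := h.odd.pos
  rcases Nat.lt_or_ge k 2 with h7 | h7
  · interval_cases k
    · omega
    · omega
  · have : 2 * n * 2 ≤ 2 * n * k := Nat.mul_le_mul_left _ h7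
    omega

theorem hyp : Hyp (bf B) (s : End F V) (cm (s : End F V)) r where
  nd := h.nd_cm
  r2 := h.r2
  rF := h.rF
  odd := by rw [h.ord]; exact h.odd
  dim := by rw [h.ord]; exact h.finrank_cm
  isom := h.isom'
  pow := h.pow'
  inv := inv_cm
  fx := by rw [inf_comm]; exact h.isCompl.inf_eq_bot
  even _ h1 h2 h3 := h.even h1 h2 h3

theorem nd_restrict : Cfsg.Agent.H204.Nd (B.restrict (cm (s : End F V))) := by
  intro u hu
  by_contra hne
  obtain ⟨v, hv, h1⟩ := h.nd_cm u.1 u.2 (fun h0 => hne (Subtype.ext h0))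
  exact h1 (hu ⟨v, hv⟩)

theorem isCompl_perp : IsCompl (cm (s : End F V)) (perp B (cm (s : End F V))) :=
  Cfsg.Agent.H204.isCompl_perp h.sy h.nd_restrict

theorem finrank_perp : finrank F (perp B (cm (s : End F V))) = 1 := by
  have h1 := Submodule.finrank_add_eq_of_isCompl h.isCompl_perp
  rw [h.finrank_cm, h.dim] at h1
  omega

end OS

section comm

variable (hxi : ∀ u v, B (x u) (x v) = B u v)

theorem inv_cm_of_comm (hxs : ∀ v, x (s v) = s (x v)) : Inv (x : End F V) (cm (s : End F V)) := by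
  intro v hv
  obtain ⟨w, rfl⟩ := mem_cm.1 hv
  refine mem_cm.2 ⟨x w, ?_⟩
  show s (x w) - x w = x (s w - w)
  rw [map_sub, hxs]

include hxi

theorem inv_perp_of_inv {X : Submodule F V} (hX : Inv (x : End F V) X) : Inv (x : End F V) (perp B X) :=
  Cfsg.Agent.H204.inv_perp (fun u v => by rw [one_mul]; exact hxi u v) x.injective hX

theorem inv_of_inv_perp (hs : Sy B) (hn : Cfsg.Agent.H204.Nd B) {X : Submodule F V} (hc : IsCompl X (perp B X))
    (hX : Inv (x : End F V) (perp B X)) : Inv (x : End F V) X := by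
  have h1 := inv_perp_of_inv hxi hX
  have h2 : perp B (perp B X) = X := by
    apply le_antisymm
    · intro v hv
      have h3 : v ∈ X ⊔ perp B X := by rw [hc.sup_eq_top]; trivial
      obtain ⟨a, ha, b, hb, rfl⟩ := Submodule.mem_sup.1 h3
      have hb0 : b = 0 := by
        apply hn
        intro u
        have h4 : u ∈ X ⊔ perp B X := by rw [hc.sup_eq_top]; trivial
        obtain ⟨c, hc', d, hd, rfl⟩ := Submodule.mem_sup.1 h4
        have e1 : B b c = 0 := by rw [hs]; exact mem_perp.1 hb c hc'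
        have e2 : B d (a + b) = 0 := mem_perp.1 hv d hd
        have e3 : B d a = 0 := by rw [hs]; exact mem_perp.1 hd a ha
        rw [map_add, e3, zero_add] at e2
        rw [map_add, e1, hs b d, e2, add_zero]
      rw [hb0, add_zero]
      exact ha
    · intro v hv
      rw [mem_perp]
      intro u hu
      rw [hs]
      exact mem_perp.1 hu v hv
  rwa [h2] at h1

end comm

namespace OS

variable (h : OS B s r n) [hr : Fact r.Prime]

include h

/-- on the line, everything is a scalar -/
theorem scalar {g : V ≃ₗ[F] V} (hg : Inv (g : End F V) (perp B (cm (s : End F V)))) :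
    ∃ c : F, ∀ v ∈ perp B (cm (s : End F V)), g v = c • v := by
  obtain ⟨v, hv0, hv⟩ := finrank_eq_one_iff'.1 h.finrank_perp
  obtain ⟨c, hc⟩ := hv ⟨g v, hg v v.2⟩
  refine ⟨c, fun w hw => ?_⟩
  obtain ⟨d, hd⟩ := hv ⟨w, hw⟩
  have h1 : w = d • (v : V) := (congrArg Subtype.val hd).symm
  have h2 : g v = c • (v : V) := (congrArg Subtype.val hc).symm
  rw [h1, map_smul, h2, smul_comm]

/-- **everything commuting with `s` commutes.** -/
theorem comm (hxi : ∀ u v, B (x u) (x v) = B u v) (hxs : ∀ v, x (s v) = s (x v))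
    (hti : ∀ u v, B (t u) (t v) = B u v) (hts : ∀ v, t (s v) = s (t v)) (v : V) : t (x v) = x (t v) := by
  have hxW := inv_cm_of_comm hxs
  have htW := inv_cm_of_comm hts
  obtain ⟨U, U', f, f', -, D⟩ := h.hyp.exists_dat (frm_bf h.sy)
  have hx' : Commute ((s : End F V).restrict h.hyp.inv) ((x : End F V).restrict hxW) := by
    apply LinearMap.ext
    intro u
    apply Subtype.ext
    exact (hxs u).symm
  have ht' : Commute ((s : End F V).restrict h.hyp.inv) ((t : End F V).restrict htW) := by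
    apply LinearMap.ext
    intro u
    apply Subtype.ext
    exact (hts u).symm
  have hW : ∀ u ∈ cm (s : End F V), t (x u) = x (t u) := by
    intro u hu
    obtain ⟨a, b, hab⟩ := D.pr.exists_add ⟨u, hu⟩
    have e1 : ∀ {T : Submodule F (cm (s : End F V))}, Irr ((s : End F V).restrict h.hyp.inv) T →
        Inv ((x : End F V).restrict hxW) T → Inv ((t : End F V).restrict htW) T → ∀ a ∈ T,
        t (x (a : V)) = x (t (a : V)) := by
      intro T hT h1 h2 a ha
      have h3 := comm_of_irr hT (a := (t : End F V).restrict htW) (b := (x : End F V).restrict hxW)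
        (fun v => (LinearMap.congr_fun ht'.eq v).symm) (fun v => (LinearMap.congr_fun hx'.eq v).symm) h2 h1 ha
      exact congrArg Subtype.val h3
    have ea := e1 D.irr (inv_of_ker hx' D.ker) (inv_of_ker ht' D.ker) a a.2
    have eb := e1 D.irr' (inv_of_ker hx' D.ker') (inv_of_ker ht' D.ker') b b.2
    have e2 : u = ((a : cm (s : End F V)) : V) + ((b : cm (s : End F V)) : V) := congrArg Subtype.val hab
    rw [e2, map_add, map_add, map_add, map_add, ea, eb]
  have hxL := inv_perp_of_inv hxi hxW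
  have htL := inv_perp_of_inv hti htW
  obtain ⟨c, hc⟩ := h.scalar hxL
  obtain ⟨d, hd⟩ := h.scalar htL
  obtain ⟨a, b, rfl⟩ := Cfsg.Agent.H204.exists_add h.isCompl_perp v
  rw [map_add, map_add, map_add, map_add, hW a a.2, hc b b.2, hd b b.2, map_smul, map_smul, hc b b.2, hd b b.2,
    smul_comm]

/-- **reduction to `W`.** -/
theorem card_red (hxi : ∀ u v, B (x u) (x v) = B u v) (hxs : ∀ v, x (s v) = s (x v))
    (hfix : ∃ v, v ≠ 0 ∧ x v = v) (hW : ∀ v ∈ cm (s : End F V), x v = v → v = 0) :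
    Nat.card (CI B (x : End F V)) =
      Nat.card (CI (B.restrict (cm (s : End F V))) (res (x : End F V) (inv_cm_of_comm hxs))) * 2 := by
  have hxW := inv_cm_of_comm hxs
  have hxL := inv_perp_of_inv hxi hxW
  obtain ⟨c, hc⟩ := h.scalar hxL
  -- fixed vectors lie on the line
  have hfx : ∀ v, x v = v → v ∈ perp B (cm (s : End F V)) := by
    intro v hv
    obtain ⟨a, b, rfl⟩ := Cfsg.Agent.H204.exists_add h.isCompl_perp v
    rw [map_add] at hv
    have h1 : x a - (a : V) = (b : V) - x b := by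
      rw [sub_eq_sub_iff_add_eq_add, hv, add_comm]
    have h3 : x a - (a : V) ∈ cm (s : End F V) ⊓ perp B (cm (s : End F V)) := by
      refine ⟨Submodule.sub_mem _ (hxW a a.2) a.2, ?_⟩
      rw [SetLike.mem_coe, h1]
      exact Submodule.sub_mem _ b.2 (hxL b b.2)
    rw [h.isCompl_perp.inf_eq_bot, Submodule.mem_bot, sub_eq_zero] at h3
    rw [hW a a.2 h3, zero_add]
    exact b.2
  obtain ⟨v0, hv0, hxv0⟩ := hfix
  have hv0L := hfx v0 hxv0
  have hc1 : c = 1 := by
    have h1 := hc v0 hv0L
    rw [hxv0] at h1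
    have h2 : (c - 1) • v0 = 0 := by rw [sub_smul, ← h1, one_smul, sub_self]
    exact sub_eq_zero.1 ((smul_eq_zero.1 h2).resolve_right hv0)
  have hfx' : ∀ v ∈ perp B (cm (s : End F V)), x v = v := by
    intro v hv
    rw [hc v hv, hc1, one_smul]
  have hpres : ∀ g : CI B (x : End F V), Inv (g.1 : End F V) (cm (s : End F V)) ∧
      Inv (g.1 : End F V) (perp B (cm (s : End F V))) := by
    rintro ⟨g, hg, hgx⟩
    have h1 : Inv (g : End F V) (perp B (cm (s : End F V))) := by
      intro v hv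
      apply hfx
      show x (g v) = g v
      rw [show x (g v) = g (x v) from (hgx v).symm, hfx' v hv]
    exact ⟨inv_of_inv_perp hg h.sy h.nd h.isCompl_perp h1, h1⟩
  rw [card_split h.sy h.isCompl_perp hxW hxL hpres,
    card_line h.h2 (nd_restrict_perp h.sy h.nd h.isCompl_perp.sup_eq_top) h.finrank_perp]

/-- **The centralizer of `s`.** -/
theorem card_s : Nat.card (CI B (s : End F V)) = (Nat.card F ^ n - 1) * 2 := by
  rw [h.card_red h.isom (fun _ => rfl)]
  · congr 1
    have h1 := h.hyp.card_self (frm_bf h.sy)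
    rw [h.ord] at h1
    exact h1
  · -- a vector on the line
    obtain ⟨v, hv0, hv⟩ := finrank_eq_one_iff'.1 h.finrank_perp
    refine ⟨v, fun h0 => hv0 (Subtype.ext h0), ?_⟩
    have h1 := v.2
    have h3 : (s v : V) - v ∈ cm (s : End F V) ⊓ perp B (cm (s : End F V)) :=
      ⟨mem_cm.2 ⟨v, rfl⟩, Submodule.sub_mem _ (inv_perp_of_inv h.isom (inv_cm_of_comm fun _ => rfl) v h1) h1⟩
    rw [h.isCompl_perp.inf_eq_bot, Submodule.mem_bot, sub_eq_zero] at h3
    exact h3
  · intro v hv h1
    have h3 : v ∈ fx (s : End F V) ⊓ cm (s : End F V) := ⟨mem_fx.2 h1, hv⟩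
    rw [h.isCompl.inf_eq_bot, Submodule.mem_bot] at h3
    exact h3

end OS

end Cfsg.Agent.H79.CS
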