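import Cfsg.Agent.H79.CS.OddGeo
import Cfsg.Agent.H79.CS.OddAr
import Cfsg.Agent.H524.CS.Even
import Cfsg.Agent.H524.CS.Arith
import Cfsg.Agent.S0292

/-!
# S3677, `lat_odd_odd` (helper79)

`POmega_{2n+1}(q)`, `q` odd, `n ≥ 3` odd, `r` of order `n`.
-/

set_option autoImplicit false
set_option linter.unusedSectionVars false

namespace Cfsg.Agent.H79.CS

open Module QuadraticMap Cfsg
open Cfsg.Agent.H951 (Inv cm mem_fx mem_cm)
open Cfsg.Agent.H204 (Sy perp mem_perp res coe_res nd_restrict_perp)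
open Cfsg.Agent.H524.CS
open Cfsg.Agent.LieClassical.OrthFinite Cfsg.Agent.LieClassical.OrthForms Cfsg.Agent.LieClassical.OrthCore
open Cfsg.Agent.ClassicalGeometry.SpinorSign Cfsg.Agent.ClassicalGeometry.OmegaIndex
open Cfsg.Agent.H370.AAM Cfsg.Agent.H431.CS

section

variable {F : Type*} [Field F] [Fintype F] {ι : Type} [Fintype ι] [DecidableEq ι] {Q : QuadraticForm F (ι → F)}
  {r n : ℕ}

/-- the situation -/
structure Sit (Q : QuadraticForm F (ι → F)) (r n : ℕ) : Prop where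
  nd : (polarBilin Q).Nondegenerate
  h2 : (2 : F) ≠ 0
  pr : r.Prime
  r2 : r ≠ 2
  rF : (r : F) ≠ 0
  odd : Odd n
  three : 3 ≤ n
  ord : orderOf (Fintype.card F : ZMod r) = n
  dim : Fintype.card ι = 2 * n + 1

variable (h : Sit Q r n)

include h

theorem Sit.os {y : Omega F ⇑Q} (hy : orderOf y = r) : OS (polarBilin Q) (ie Q y.1) r n where
  sy := sy_polar Q
  nd := fun u hu => h.nd.1 u hu
  h2 := h.h2
  r2 := h.r2
  rF := h.rF
  odd := h.odd
  ord := h.ord
  dim := by rw [Module.finrank_fintype_fun_eq_card, h.dim]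
  isom := ie_B y.1
  pow := by
    rw [← map_pow, ← Subgroup.coe_pow, ← hy, pow_orderOf_eq_one, Subgroup.coe_one, map_one]
  ne := by
    intro h1
    have h2 : y.1 = 1 := isometryHom_injective Q (by rw [map_one]; exact h1)
    have h3 : y = 1 := Subtype.ext h2
    rw [h3, orderOf_one] at hy
    exact h.pr.one_lt.ne hy

theorem Sit.det {x : Omega F ⇑Q} : LinearMap.det (ie Q x.1 : End F (ι → F)) = 1 := by
  rw [det_ie]
  exact ((mem_Omega_iff h.h2 Q h.nd (by rw [h.dim]; have := h.three; omega) one_ne_zero x.1).1 x.2).1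

theorem Sit.comm' {x y : Omega F ⇑Q} (hxy : Commute y x) (v : ι → F) :
    ie Q x.1 (ie Q y.1 v) = ie Q y.1 (ie Q x.1 v) := by
  have h1 : x.1 * y.1 = y.1 * x.1 := congrArg Subtype.val hxy.eq.symm
  have h2 := congrArg (fun k => ie Q k v) h1
  simp only [map_mul] at h2
  exact h2

theorem Sit.card4 {x y : Omega F ⇑Q} (hy : orderOf y = r) (hxy : Commute y x) :
    Nat.card (CI (polarBilin Q) (ie Q x.1 : End F (ι → F))) =
      4 * Nat.card (Subgroup.centralizer ({x} : Set (Omega F ⇑Q))) := by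
  have hr : Fact r.Prime := ⟨h.pr⟩
  have os := h.os hy
  have hodd : Odd (Fintype.card ι) := by rw [h.dim]; exact ⟨n, rfl⟩
  have h3 : 3 ≤ Fintype.card ι := by rw [h.dim]; have := h.three; omega
  obtain ⟨t, ht1, ht2, ht3⟩ := exists_t (x := x.1) (s := y.1) h.h2 h.nd (h.pr.odd_of_ne_two h.r2) h.rF
    (by rw [← Subgroup.coe_pow, ← hy, pow_orderOf_eq_one, Subgroup.coe_one])
    (fun h1 => os.ne (by rw [h1, map_one]))
    (fun t ht hts v => by
      have hinj : Function.Injective t := by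
        rw [← LinearMap.ker_eq_bot, LinearMap.ker_eq_bot']
        intro u hu
        apply h.nd.1
        intro v
        rw [← ht, hu, map_zero, LinearMap.zero_apply]
      exact os.comm (x := ie Q x.1) (t := LinearEquiv.ofInjectiveEndo t hinj) (ie_B x.1) (h.comm' hxy) ht hts v)
  exact card_omega h.h2 h.nd hodd h3 x ht1 ht2 ht3

/-- elements of order `r` -/
theorem Sit.cent_y {y : Omega F ⇑Q} (hy : orderOf y = r) :
    2 * Nat.card (Subgroup.centralizer ({y} : Set (Omega F ⇑Q))) = Nat.card F ^ n - 1 := by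
  have hr : Fact r.Prime := ⟨h.pr⟩
  have h1 := h.card4 hy (Commute.refl y)
  rw [(h.os hy).card_s] at h1
  omega

theorem Sit.det_split {y : Omega F ⇑Q} (hy : orderOf y = r) {x : (ι → F) ≃ₗ[F] (ι → F)}
    (hx : ∀ v ∈ cm (ie Q y.1 : End F (ι → F)), x v = v) {c : F}
    (hc : ∀ v ∈ perp (polarBilin Q) (cm (ie Q y.1 : End F (ι → F))), x v = c • v) :
    LinearMap.det (x : End F (ι → F)) = c := by
  have hr : Fact r.Prime := ⟨h.pr⟩
  have os := h.os hy
  have h1 : (x : End F (ι → F)) = Cfsg.Agent.H204.glue os.isCompl_perp 1 (c • 1) := by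
    apply LinearMap.ext
    intro v
    obtain ⟨a, b, rfl⟩ := Cfsg.Agent.H204.exists_add os.isCompl_perp v
    rw [Cfsg.Agent.H204.glue_add]
    show x (a + b) = _
    rw [map_add, hx a a.2, hc b b.2]
    rfl
  rw [h1, Cfsg.Agent.H204.det_glue, map_one, one_mul, LinearMap.det_smul, os.finrank_perp, pow_one, map_one, mul_one]

/-- **The classification.** -/
theorem Sit.classes {p f : ℕ} (hp : p.Prime) (hf : 1 ≤ f) (hF : Fintype.card F = p ^ f) {x y : Omega F ⇑Q}
    (hx1 : x ≠ 1) (hxy : Commute y x) (hy : orderOf y = r) :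
    (∃ A, ¬ p ∣ A ∧ Nat.card (Subgroup.centralizer ({x} : Set (Omega F ⇑Q))) = (p ^ f) ^ (n * (n - 1)) * A) ∨
      ∃ k m, k * m = n ∧ 2 * Nat.card (Subgroup.centralizer ({x} : Set (Omega F ⇑Q))) = glc ((p ^ f) ^ k) m := by
  have hr : Fact r.Prime := ⟨h.pr⟩
  have os := h.os hy
  have h4 := h.card4 hy hxy
  have hxi := ie_B x.1
  have hxs := h.comm' hxy
  have hxW := inv_cm_of_comm hxs
  have hxL := inv_perp_of_inv hxi hxW
  have hcomm : Commute (ie Q x.1 : End F (ι → F)) (ie Q y.1 : End F (ι → F)) := LinearMap.ext hxs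
  have hfix := exists_fixed (D := ι → F) (B := polarBilin Q) (by rw [os.dim]; exact ⟨n, rfl⟩) h.h2
    (fun u hu => h.nd.1 u hu) (f := (ie Q x.1 : End F (ι → F))) hxi h.det
  rcases os.hyp.tri (frm_bf os.sy) (x := (ie Q x.1 : End F (ι → F))) (fun u v => hxi u v) hcomm hxW with
    h1 | h1 | ⟨h1, -, k, m, hk, hkm, hcard⟩
  · exfalso
    obtain ⟨c, hc⟩ := os.scalar hxL
    have h5 := h.det_split hy h1 hc
    rw [h.det] at h5
    apply hx1
    apply Subtype.ext
    apply isometryHom_injective Q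
    rw [Subgroup.coe_one, map_one]
    apply LinearEquiv.ext
    intro v
    obtain ⟨a, b, rfl⟩ := Cfsg.Agent.H204.exists_add os.isCompl_perp v
    show ie Q x.1 (a + b) = a + b
    rw [map_add, hc b b.2, ← h5, one_smul]
    congr 1
    exact h1 a a.2
  · left
    have h5 := os.card_red hxi hxs hfix (fun v hv hv1 => by
      have h6 := h1 v hv
      change ie Q x.1 v = -v at h6
      rw [hv1] at h6
      have h7 : (2 : F) • v = 0 := by
        rw [two_smul]
        nth_rewrite 2 [h6]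
        exact add_neg_cancel v
      exact (smul_eq_zero.1 h7).resolve_left h.h2)
    have h6 : Nat.card (CI (LinearMap.BilinForm.restrict (polarBilin Q) (cm (ie Q y.1 : End F (ι → F))))
        (res (ie Q x.1 : End F (ι → F)) (inv_cm_of_comm hxs))) =
        Nat.card {g : (cm (ie Q y.1 : End F (ι → F))) ≃ₗ[F] (cm (ie Q y.1 : End F (ι → F))) // ∀ u v,
          polarBilin (Q.comp (cm (ie Q y.1 : End F (ι → F))).subtype) (g u) (g v) =
            polarBilin (Q.comp (cm (ie Q y.1 : End F (ι → F))).subtype) u v} := by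
      refine Nat.card_congr (Equiv.subtypeEquivRight fun g => ⟨fun h7 => h7.1, fun h7 => ⟨h7, fun v => ?_⟩⟩)
      apply Subtype.ext
      have e1 := h1 v v.2
      have e2 := h1 (g v) (g v).2
      have e3 : res (ie Q x.1 : End F (ι → F)) (inv_cm_of_comm hxs) v = -v := Subtype.ext e1
      have e4 : res (ie Q x.1 : End F (ι → F)) (inv_cm_of_comm hxs) (g v) = - (g v) := Subtype.ext e2
      rw [e3, e4, map_neg]
    obtain ⟨A, hA, hA2⟩ := card_even h.h2 hp hf (by rw [Nat.card_eq_fintype_card, hF]) (by have := h.three; omega)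
      os.finrank_cm (Q.comp (cm (ie Q y.1 : End F (ι → F))).subtype) (by
        intro u hu
        exact os.nd_restrict u fun v => hu v)
    refine ⟨A, hA, ?_⟩
    rw [h6, hA2, h4] at h5
    omega
  · right
    refine ⟨k, m, by rw [hkm, h.ord], ?_⟩
    have h5 := os.card_red hxi hxs hfix h1
    have h6 : Nat.card (CI (LinearMap.BilinForm.restrict (polarBilin Q) (cm (ie Q y.1 : End F (ι → F))))
        (res (ie Q x.1 : End F (ι → F)) (inv_cm_of_comm hxs))) = glc (Nat.card F ^ k) m := hcard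
    have e : Nat.card F = p ^ f := by rw [Nat.card_eq_fintype_card, hF]
    rw [h6, h4, e] at h5
    omega

end

theorem _root_.Cfsg.Agent.H431.CS.Lat.of_eq {S T : Type*} [Group S] [Group T] {p r m : ℕ} (hco : Co S = Co T)
    (hc : Nat.card S = Nat.card T) (h : Lat S p r m) : Lat T p r m := by
  obtain ⟨h1, h2, h3, h4, h5, h6, h7, h8⟩ := h
  rw [hco] at h2 h3 h6 h7 h8
  rw [hc] at h1 h4 h6 h7 h8
  exact ⟨h1, h2, h3, h4, h5, h6, h7, h8⟩

/-- **`PΩ_{2n+1}(q)`, `q` odd, `n ≥ 3` odd, `r` of order `n`.** -/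
theorem lat_odd_odd {F : Type*} [Field F] [Fintype F] {p f n r : ℕ} (hp : p.Prime) (hp2 : p ≠ 2) (hf : 1 ≤ f)
    (hF : Fintype.card F = p ^ f) (hn : 3 ≤ n) (hodd : Odd n) (hr : r.Prime)
    (ho : orderOf (((p ^ f : ℕ)) : ZMod r) = n) :
    Lat (POmega F (quadFormOdd n F)) p r (((p ^ f) ^ n - 1) / 2) := by
  have h2 : (2 : F) ≠ 0 := Cfsg.Agent.LieClassical.PomegaCard.odd_card_iff.1 (by rw [hF]; exact (hp.odd_of_ne_two hp2).pow)
  have hN := Cfsg.Agent.S0292.result (F := F) (q := p ^ f) hF ((hp.odd_of_ne_two hp2).pow) n hn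
  rw [← coe_oddForm] at hN ⊢
  have hnd : (polarBilin (oddForm n F)).Nondegenerate := by
    have h3 := nondeg_oddForm n F h2
    exact ⟨fun u hu => h3 u hu, fun u hu => h3 u fun v => by rw [polar_comm]; exact hu v⟩
  have hcard : Fintype.card (Unit ⊕ (Fin n ⊕ Fin n)) = 2 * n + 1 := by simp; omega
  have hr2 := r_ne_two hp hf hn hN hr hodd ho
  have hrp := r_ne_p hp hf hn hN hr hodd ho
  have hchar : CharP F p := by
    obtain ⟨l, hl⟩ := CharP.exists F
    obtain ⟨k, hlp, hk⟩ := FiniteField.card F l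
    have h3 : p = l := by
      rw [hF] at hk
      exact (Nat.prime_dvd_prime_iff_eq hp hlp).1 (hp.dvd_of_dvd_pow (n := (k : ℕ)) (by
        rw [← hk]; exact dvd_pow_self p (by omega)))
    rw [h3]; exact hl
  have hS : Sit (oddForm n F) r n := ⟨hnd, h2, hr, hr2, by
    intro h0
    have h3 : p ∣ r := (CharP.cast_eq_zero_iff F p r).1 h0
    exact hrp ((Nat.prime_dvd_prime_iff_eq hp hr).1 h3).symm, hodd, hn, by rw [hF]; exact ho, hcard⟩
  have hco := co_pomega h2 hnd (by rw [hcard]; exact ⟨n, rfl⟩) (by omega)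
  have hpc := card_pomega h2 hnd (by rw [hcard]; exact ⟨n, rfl⟩) (by omega)
  refine Cfsg.Agent.H431.CS.Lat.of_eq hco.symm hpc.symm ?_
  rw [hpc] at hN
  obtain ⟨hf1, hf2⟩ := full_N hp hf hn hN hr hodd ho hp2
  have h2M := two_dvd_pow_sub (p := p) (f := f) (n := n) hp hf hn hN hp2
  refine lat_of hp hp2 hf (by omega : 2 ≤ n) hr (fac_N hp hf hn hN hp2) hf1 hf2 ?_ (fun k m => glc ((p ^ f) ^ k) m) ?_ ?_
    ?_ ?_ ?_
  · intro h3
    exact not_dvd_pow_sub hp hf (k := n) (by omega) (by rw [← h2M]; exact h3.mul_left 2)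
  · intro k m hkm
    exact glc_ne hp hf (Nat.pos_of_ne_zero (by rintro rfl; omega))
  · intro k m hkm
    exact factorization_glc hp hf (Nat.pos_of_ne_zero (by rintro rfl; omega))
  · intro y hy
    have h3 := hS.cent_y hy
    rw [Nat.card_eq_fintype_card (α := F), hF, ← h2M] at h3
    omega
  · show glc ((p ^ f) ^ n) 1 = _
    rw [glc_one, h2M]
  · intro x y hx1 hxy hy
    exact hS.classes hp hf hF hx1 hxy hy

end Cfsg.Agent.H79.CS
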